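import Cfsg.Prelude.Def_Classical

/-!
# Involution centralizers of `PSU₃(q)`, `q ≥ 4` even, are not nilpotent (helper196, LSP-D)
-/

set_option autoImplicit false

namespace Cfsg.Agent.H196.Lsp.PSU

open Cfsg Matrix

variable {F : Type*} [Field F]

/-- membership in `SU₃` through the matrix equation -/
theorem mem_SU {q k : ℕ} [CharP F 2] (hq : q = 2 ^ k) (M : SpecialLinearGroup (Fin 3) F)
    (h : ∀ i j, ∑ l, (M : Matrix (Fin 3) (Fin 3) F) l i * ((M : Matrix (Fin 3) (Fin 3) F) l j) ^ q =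
      if i = j then 1 else 0) : M ∈ SU 3 F q := by
  intro u v
  have hM : slToMat 3 F M = (M : Matrix (Fin 3) (Fin 3) F) := rfl
  rw [hM]
  have hadd : ∀ a b : F, (a + b) ^ q = a ^ q + b ^ q := by
    intro a b
    rw [hq]
    exact add_pow_char_pow a b 2 k
  have h00 := h 0 0
  have h01 := h 0 1
  have h02 := h 0 2
  have h10 := h 1 0
  have h11 := h 1 1
  have h12 := h 1 2
  have h20 := h 2 0
  have h21 := h 2 1
  have h22 := h 2 2
  simp only [Fin.sum_univ_three, Fin.isValue, reduceIte] at h00 h01 h02 h10 h11 h12 h20 h21 h22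
  simp only [Fin.isValue, Fin.reduceEq, reduceIte] at h01 h02 h10 h12 h20 h21
  simp only [hermForm, mulVec, dotProduct, Fin.sum_univ_three, Fin.isValue, hadd, mul_pow]
  linear_combination (u 0 * v 0 ^ q) * h00 + (u 0 * v 1 ^ q) * h01 + (u 0 * v 2 ^ q) * h02 +
    (u 1 * v 0 ^ q) * h10 + (u 1 * v 1 ^ q) * h11 + (u 1 * v 2 ^ q) * h12 +
    (u 2 * v 0 ^ q) * h20 + (u 2 * v 1 ^ q) * h21 + (u 2 * v 2 ^ q) * h22

theorem exists_data {q k : ℕ} [CharP F 2] (hq : q = 2 ^ k) {l c : F} (hl : l * l ^ q = 1) (hl2 : l ^ 2 ≠ 1)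
    (hl3 : l ^ 3 ≠ 1) (hc : c ^ q = 1 + c) :
    ∃ u s x : PSU 3 F q, u ≠ 1 ∧ u * u = 1 ∧ s * s = u ∧ x ^ (q + 1) = 1 ∧ x * u = u * x ∧ x * s ≠ s * x := by
  have h2 : (2 : F) = 0 := CharTwo.two_eq_zero
  have hl0 : l ≠ 0 := by
    rintro rfl
    rw [zero_mul] at hl
    exact zero_ne_one hl
  have hq0 : q ≠ 0 := by rw [hq]; positivity
  have hlq : l ^ q = l⁻¹ := by
    field_simp
    rw [mul_comm]; exact hl
  -- the matrices
  let Sm : Matrix (Fin 3) (Fin 3) F := !![1 + c, c, 1; c, 1 + c, 1; 1, 1, 1]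
  let Um : Matrix (Fin 3) (Fin 3) F := !![0, 1, 0; 1, 0, 0; 0, 0, 1]
  let Xm : Matrix (Fin 3) (Fin 3) F := !![l, 0, 0; 0, l, 0; 0, 0, l⁻¹ ^ 2]
  let Dm : Matrix (Fin 3) (Fin 3) F := !![l, 0, 0; 0, l⁻¹, 0; 0, 0, 1]
  have hSd : Sm.det = 1 := by
    simp only [Sm, det_fin_three, of_apply, cons_val', cons_val_zero, cons_val_one, cons_val, empty_val', cons_val_fin_one]
    linear_combination (c - 1) * h2
  have hUd : Um.det = 1 := by
    simp [Um, det_fin_three]
    linear_combination (-1) * h2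
  have hXd : Xm.det = 1 := by
    simp [Xm, det_fin_three]
    field_simp
  have hDd : Dm.det = 1 := by
    simp [Dm, det_fin_three]
    field_simp
  have hcc : (1 + c) ^ q = c := by
    rw [hq, add_pow_char_pow, one_pow, ← hq, hc]
    linear_combination h2
  have hSm : (⟨Sm, hSd⟩ : SpecialLinearGroup (Fin 3) F) ∈ SU 3 F q := by
    apply mem_SU hq
    intro i j
    fin_cases i <;> fin_cases j <;> simp [Sm, Fin.sum_univ_three, hc, hcc] <;> ring_nf <;>
      first
      | linear_combination (c + c ^ 2) * h2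
      | linear_combination (1 + c + c ^ 2) * h2
      | linear_combination (1 + c) * h2
      | linear_combination h2
  have hUm : (⟨Um, hUd⟩ : SpecialLinearGroup (Fin 3) F) ∈ SU 3 F q := by
    apply mem_SU hq
    intro i j
    fin_cases i <;> fin_cases j <;> simp [Um, Fin.sum_univ_three, hq0]
  have hXm : (⟨Xm, hXd⟩ : SpecialLinearGroup (Fin 3) F) ∈ SU 3 F q := by
    apply mem_SU hq
    have h6 : (l⁻¹ ^ 2) ^ q = l ^ 2 := by
      rw [← pow_mul, mul_comm 2 q, pow_mul, inv_pow, hlq, inv_inv]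
    intro i j
    fin_cases i <;> fin_cases j <;> simp only [Xm, Fin.sum_univ_three, of_apply, cons_val', cons_val_zero, cons_val_one,
      cons_val, empty_val', cons_val_fin_one, Fin.isValue, Fin.mk_zero, Fin.mk_one, Fin.zero_eta, Fin.reduceFinMk, h6, hlq, zero_pow hq0,
      reduceIte, Fin.reduceEq] <;> field_simp <;> simp
  have hDm : (⟨Dm, hDd⟩ : SpecialLinearGroup (Fin 3) F) ∈ SU 3 F q := by
    apply mem_SU hq
    have h6 : (l⁻¹) ^ q = l := by
      rw [inv_pow, hlq, inv_inv]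
    intro i j
    fin_cases i <;> fin_cases j <;> simp only [Dm, Fin.sum_univ_three, of_apply, cons_val', cons_val_zero, cons_val_one,
      cons_val, empty_val', cons_val_fin_one, Fin.isValue, Fin.mk_zero, Fin.mk_one, Fin.zero_eta, Fin.reduceFinMk, h6, hlq, zero_pow hq0, one_pow,
      reduceIte, Fin.reduceEq] <;> field_simp <;> simp
  let S : SU 3 F q := ⟨⟨Sm, hSd⟩, hSm⟩
  let U : SU 3 F q := ⟨⟨Um, hUd⟩, hUm⟩
  let X : SU 3 F q := ⟨⟨Xm, hXd⟩, hXm⟩
  let D : SU 3 F q := ⟨⟨Dm, hDd⟩, hDm⟩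
  have ext : ∀ a b : SU 3 F q, ((a : SpecialLinearGroup (Fin 3) F) : Matrix (Fin 3) (Fin 3) F) = ((b : SpecialLinearGroup (Fin 3) F) : Matrix (Fin 3) (Fin 3) F) → a = b := by
    intro a b h
    exact Subtype.ext (Subtype.ext h)
  have hSS : S * S = U := by
    apply ext
    show Sm * Sm = Um
    ext i j
    fin_cases i <;> fin_cases j <;> simp [Sm, Um, mul_apply, Fin.sum_univ_three] <;> ring_nf <;>
      first
      | linear_combination (c + c ^ 2) * h2
      | linear_combination (1 + c + c ^ 2) * h2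
      | linear_combination (1 + c) * h2
      | linear_combination h2
  have hUU : U * U = 1 := by
    apply ext
    show Um * Um = 1
    ext i j
    fin_cases i <;> fin_cases j <;> simp [Um, mul_apply, Fin.sum_univ_three]
  have hXU : X * U = U * X := by
    apply ext
    show Xm * Um = Um * Xm
    ext i j
    fin_cases i <;> fin_cases j <;> simp [Xm, Um, mul_apply, Fin.sum_univ_three]
  have hl1 : l ≠ 1 := by
    rintro rfl
    exact hl2 (one_pow 2)
  have hlinv : l ≠ l⁻¹ := by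
    intro h
    apply hl2
    rw [pow_two]
    nth_rewrite 2 [h]
    exact mul_inv_cancel₀ hl0
  have hlinv1 : l⁻¹ ≠ 1 := fun h => hl1 (inv_eq_one.1 h)
  -- central elements are scalar
  have hcen : ∀ z ∈ Subgroup.center (SU 3 F q), ∃ ζ : F,
      ((z : SpecialLinearGroup (Fin 3) F) : Matrix (Fin 3) (Fin 3) F) = diagonal fun _ => ζ := by
    intro z hz
    rw [Subgroup.mem_center_iff] at hz
    set Z : Matrix (Fin 3) (Fin 3) F := ((z : SpecialLinearGroup (Fin 3) F) : Matrix (Fin 3) (Fin 3) F) with hZ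
    have h1 : Dm * Z = Z * Dm := congrArg (fun a : SU 3 F q => ((a : SpecialLinearGroup (Fin 3) F) : Matrix (Fin 3) (Fin 3) F)) (hz D)
    have h3 : Sm * Z = Z * Sm := congrArg (fun a : SU 3 F q => ((a : SpecialLinearGroup (Fin 3) F) : Matrix (Fin 3) (Fin 3) F)) (hz S)
    have e : ∀ i j, (Dm * Z) i j = (Z * Dm) i j := fun i j => by rw [h1]
    have e01 := e 0 1
    have e02 := e 0 2
    have e10 := e 1 0
    have e12 := e 1 2
    have e20 := e 2 0
    have e21 := e 2 1
    have f02 : (Sm * Z) 0 2 = (Z * Sm) 0 2 := by rw [h3]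
    have f12 : (Sm * Z) 1 2 = (Z * Sm) 1 2 := by rw [h3]
    simp [Dm, mul_apply, Fin.sum_univ_three] at e01 e02 e10 e12 e20 e21
    simp [Sm, mul_apply, Fin.sum_univ_three] at f02 f12
    have z01 : Z 0 1 = 0 := by
      have : (l - l⁻¹) * Z 0 1 = 0 := by linear_combination e01
      exact (mul_eq_zero.1 this).resolve_left (sub_ne_zero.2 hlinv)
    have z10 : Z 1 0 = 0 := by
      have : (l - l⁻¹) * Z 1 0 = 0 := by linear_combination (-1) * e10
      exact (mul_eq_zero.1 this).resolve_left (sub_ne_zero.2 hlinv)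
    have z02 : Z 0 2 = 0 := by
      have : (l - 1) * Z 0 2 = 0 := by linear_combination e02
      exact (mul_eq_zero.1 this).resolve_left (sub_ne_zero.2 hl1)
    have z20 : Z 2 0 = 0 := by
      have : (l - 1) * Z 2 0 = 0 := by linear_combination (-1) * e20
      exact (mul_eq_zero.1 this).resolve_left (sub_ne_zero.2 hl1)
    have z12 : Z 1 2 = 0 := by
      have : (l⁻¹ - 1) * Z 1 2 = 0 := by linear_combination e12
      exact (mul_eq_zero.1 this).resolve_left (sub_ne_zero.2 hlinv1)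
    have z21 : Z 2 1 = 0 := by
      have : (l⁻¹ - 1) * Z 2 1 = 0 := by linear_combination (-1) * e21
      exact (mul_eq_zero.1 this).resolve_left (sub_ne_zero.2 hlinv1)
    rw [z01, z02, z12] at f02
    rw [z02, z10, z12] at f12
    refine ⟨Z 2 2, ?_⟩
    ext i j
    fin_cases i <;> fin_cases j <;> simp [z01, z10, z02, z20, z12, z21, diagonal_apply]
    · linear_combination (-1) * f02
    · linear_combination (-1) * f12
  have hmk : ∀ a : SU 3 F q, (QuotientGroup.mk a : PSU 3 F q) = 1 ↔ a ∈ Subgroup.center (SU 3 F q) :=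
    fun a => QuotientGroup.eq_one_iff a
  refine ⟨QuotientGroup.mk U, QuotientGroup.mk S, QuotientGroup.mk X, ?_, ?_, ?_, ?_, ?_, ?_⟩
  · rw [Ne, hmk]
    intro h
    obtain ⟨ζ, hζ⟩ := hcen U h
    have h1 : Um 0 1 = (diagonal fun _ => ζ : Matrix (Fin 3) (Fin 3) F) 0 1 := congrFun (congrFun hζ 0) 1
    simp [Um] at h1
  · exact congrArg (fun a : SU 3 F q => (QuotientGroup.mk a : PSU 3 F q)) hUU
  · exact congrArg (fun a : SU 3 F q => (QuotientGroup.mk a : PSU 3 F q)) hSS
  · have h1 : X ^ (q + 1) = 1 := by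
      apply ext
      show ((X ^ (q + 1) : SU 3 F q) : SpecialLinearGroup (Fin 3) F).1 = 1
      have h5 : ((X ^ (q + 1) : SU 3 F q) : SpecialLinearGroup (Fin 3) F).1 = Xm ^ (q + 1) := by
        have h8 := congrArg (fun a : SpecialLinearGroup (Fin 3) F => (a : Matrix (Fin 3) (Fin 3) F)) (SubmonoidClass.coe_pow X (q + 1))
        exact h8.trans (Matrix.SpecialLinearGroup.coe_pow (⟨Xm, hXd⟩ : SpecialLinearGroup (Fin 3) F) (q + 1))
      have h6 : Xm = diagonal ![l, l, l⁻¹ ^ 2] := by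
        ext i j
        fin_cases i <;> fin_cases j <;> simp [Xm, diagonal_apply]
      have h7 : l ^ (q + 1) = 1 := by rw [pow_succ, mul_comm]; exact hl
      rw [h5, h6, diagonal_pow]
      ext i j
      fin_cases i <;> fin_cases j <;> simp [diagonal_apply, h7]
      rw [← pow_mul, mul_comm, pow_mul, h7, one_pow]
    exact congrArg (fun a : SU 3 F q => (QuotientGroup.mk a : PSU 3 F q)) h1
  · exact congrArg (fun a : SU 3 F q => (QuotientGroup.mk a : PSU 3 F q)) hXU
  · intro h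
    have h1 : (QuotientGroup.mk (X * S) : PSU 3 F q) = QuotientGroup.mk (S * X) := h
    rw [QuotientGroup.eq] at h1
    obtain ⟨ζ, hζ⟩ := hcen _ h1
    have h3 : S * X = X * S * ((X * S)⁻¹ * (S * X)) := by group
    have h4 : Sm * Xm = Xm * Sm * diagonal fun _ => ζ := by
      rw [← hζ]
      exact congrArg (fun a : SU 3 F q => ((a : SpecialLinearGroup (Fin 3) F) : Matrix (Fin 3) (Fin 3) F)) h3
    have g00 := congrFun (congrFun h4 0) 0
    have g01 := congrFun (congrFun h4 0) 1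
    have g02 := congrFun (congrFun h4 0) 2
    simp [Sm, Xm, mul_apply, Fin.sum_univ_three, diagonal_apply] at g00 g01 g02
    have hζ1 : ζ = 1 := by
      have h5 : l * (ζ - 1) = 0 := by linear_combination (-1) * g00 + g01
      exact sub_eq_zero.1 ((mul_eq_zero.1 h5).resolve_left hl0)
    rw [hζ1] at g02
    apply hl3
    field_simp at g02
    linear_combination (-1) * g02

/-- `PSU₃(q)`, `q ≥ 4` even, contains an involution `u` whose centralizer contains an element `s` with `s² = u` and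
an element `x` of odd order which do not commute -/
theorem exists_elts [Fintype F] {q : ℕ} (hq : Even q) (h4 : 4 ≤ q) (hF : Fintype.card F = q ^ 2) :
    ∃ u s x : PSU 3 F q, orderOf u = 2 ∧ s * s = u ∧ Odd (orderOf x) ∧ x * u = u * x ∧ x * s ≠ s * x := by
  classical
  obtain ⟨p, hp⟩ := CharP.exists F
  have hpp : p.Prime := CharP.char_is_prime F p
  have : Fact p.Prime := ⟨hpp⟩
  obtain ⟨n, hn, hcard⟩ := FiniteField.card F p
  have hp2 : p = 2 := by
    have h1 : 2 ∣ p ^ (n : ℕ) := by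
      rw [← hcard, hF]
      exact (even_iff_two_dvd.1 hq).trans (dvd_pow_self q two_ne_zero)
    exact ((Nat.prime_dvd_prime_iff_eq Nat.prime_two hpp).1 (Nat.prime_two.dvd_of_dvd_pow h1)).symm
  subst hp2
  obtain ⟨k, -, hk⟩ := (Nat.dvd_prime_pow Nat.prime_two).1
    (show q ∣ 2 ^ (n : ℕ) by rw [← hcard, hF]; exact dvd_pow_self q two_ne_zero)
  -- an element of order `q + 1`
  obtain ⟨g, hg⟩ := IsCyclic.exists_ofOrder_eq_natCard (α := Fˣ)
  have hcu : Nat.card Fˣ = (q - 1) * (q + 1) := by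
    rw [Nat.card_eq_fintype_card, Fintype.card_units, hF]
    obtain ⟨m, rfl⟩ : ∃ m, q = m + 1 := ⟨q - 1, by omega⟩
    rw [Nat.add_sub_cancel]
    have : (m + 1) ^ 2 = m * (m + 1 + 1) + 1 := by ring
    omega
  have hl : orderOf (g ^ (q - 1)) = q + 1 := by
    rw [orderOf_pow_of_dvd (by omega) (by rw [hg, hcu]; exact Dvd.intro _ rfl), hg, hcu]
    exact Nat.mul_div_cancel_left _ (by omega)
  set L : Fˣ := g ^ (q - 1) with hL
  have hpow : ∀ m : ℕ, (L : F) ^ m = 1 ↔ q + 1 ∣ m := by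
    intro m
    rw [← hl, orderOf_dvd_iff_pow_eq_one, ← Units.val_pow_eq_pow_val, Units.val_eq_one]
  have h0 : (L : F) ≠ 0 := L.ne_zero
  have h1 : (L : F) * (L : F) ^ q = 1 := by
    rw [← pow_succ', hpow]
  have h2 : (L : F) ^ 2 ≠ 1 := by
    rw [Ne, hpow]
    intro h
    have := Nat.le_of_dvd (by norm_num) h
    omega
  have h3 : (L : F) ^ 3 ≠ 1 := by
    rw [Ne, hpow]
    intro h
    have := Nat.le_of_dvd (by norm_num) h
    omega
  have hq' : (L : F) ^ q = (L : F)⁻¹ := by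
    field_simp
    rw [mul_comm]; exact h1
  have htwo : (2 : F) = 0 := CharTwo.two_eq_zero
  have hne : (L : F) + (L : F)⁻¹ ≠ 0 := by
    intro h
    apply h2
    have h5 : (L : F) * ((L : F) + (L : F)⁻¹) = 0 := by rw [h, mul_zero]
    rw [mul_add, mul_inv_cancel₀ h0] at h5
    linear_combination h5 - htwo
  have hc : ((L : F) / ((L : F) + (L : F)⁻¹)) ^ q = 1 + (L : F) / ((L : F) + (L : F)⁻¹) := by
    have h6 : ((L : F) + (L : F)⁻¹) ^ q = (L : F)⁻¹ + L := by
      rw [hk, add_pow_char_pow, ← hk, inv_pow, hq', inv_inv]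
    rw [div_pow, h6, hq', add_comm (L : F)⁻¹ (L : F)]
    rw [div_eq_iff hne, add_mul, div_mul_cancel₀ _ hne]
    linear_combination (-1) * (L : F) * htwo
  obtain ⟨u, s, x, hu1, huu, hss, hx, hxu, hxs⟩ := exists_data hk h1 h2 h3 hc
  refine ⟨u, s, x, orderOf_eq_prime (by rw [pow_two]; exact huu) hu1, hss, ?_, hxu, hxs⟩
  have h7 : Odd (q + 1) := hq.add_one
  exact h7.of_dvd_nat (orderOf_dvd_of_pow_eq_one hx)

end Cfsg.Agent.H196.Lsp.PSU
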